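import Mathlib
import Cfsg.Agent.Cl.GFSmall
import Cfsg.Agent.Inv.SqIso

/-!
# The Sylow 2-subgroup of `J₂`

Unitriangular matrices of degree three over the field with four elements, extended by the unitary
automorphism.
-/

set_option autoImplicit false

namespace Cfsg.Agent.J2S

/-- The field with four elements. -/
abbrev K4 : Type := Cl.GF4

/-- A primitive element. -/
def om : K4 := Cl.TF.prim Cl.gf4

/-- The field automorphism, or the identity. -/
def tw (e : Bool) (x : K4) : K4 := Bool.rec x (x * x) e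

/-- The group of order 128. -/
@[ext] structure T0 where
  a : K4
  b : K4
  c : K4
  e : Bool

namespace T0

instance : DecidableEq T0 := fun p q =>
  decidable_of_iff (p.a = q.a ∧ p.b = q.b ∧ p.c = q.c ∧ p.e = q.e) T0.ext_iff.symm

instance decAll (P : T0 → Prop) [DecidablePred P] : Decidable (∀ p, P p) :=
  decidable_of_iff (∀ a b c e, P ⟨a, b, c, e⟩) ⟨fun h p => h p.a p.b p.c p.e, fun h _ _ _ _ => h _⟩

instance decEx (P : T0 → Prop) [DecidablePred P] : Decidable (∃ p, P p) :=
  decidable_of_iff (∃ a b c e, P ⟨a, b, c, e⟩)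
    ⟨fun ⟨_, _, _, _, h⟩ => ⟨_, h⟩, fun ⟨p, h⟩ => ⟨p.a, p.b, p.c, p.e, h⟩⟩

/-- The unitary automorphism, or the identity. -/
def act (e : Bool) (q : T0) : T0 :=
  Bool.rec q ⟨q.b * q.b, q.a * q.a, q.c * q.c + q.a * q.a * (q.b * q.b), q.e⟩ e

/-- The untwisted product. -/
def jm (p q : T0) : T0 := ⟨p.a + q.a, p.b + q.b, p.c + q.c + p.a * q.b, xor p.e q.e⟩

theorem act_jm : ∀ (e : Bool) (p q : T0), act e (jm p q) = jm (act e p) (act e q) := by decide +kernel
theorem act_xor : ∀ (e f : Bool) (p : T0), act (xor e f) p = act e (act f p) := by decide +kernel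
theorem jm_assoc (p q r : T0) : jm (jm p q) r = jm p (jm q r) := by
  simp only [jm, Bool.xor_assoc]
  congr 1 <;> ring
theorem act_e : ∀ (e : Bool) (p : T0), (act e p).e = p.e := by decide +kernel

instance : Mul T0 := ⟨fun p q => jm p (act p.e q)⟩
instance : One T0 := ⟨⟨0, 0, 0, false⟩⟩
instance : Inv T0 := ⟨fun p => act p.e ⟨p.a, p.b, p.c + p.a * p.b, p.e⟩⟩

instance : Group T0 := Group.ofLeftAxioms
  (fun p q r => by
    change jm (jm p (act p.e q)) (act (xor p.e (act p.e q).e) r) = jm p (act p.e (jm q (act q.e r)))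
    rw [jm_assoc, act_jm, act_e, act_xor])
  (by decide +kernel) (by decide +kernel)

/-- The coordinates. -/
def equivProd : T0 ≃ K4 × K4 × K4 × Bool where
  toFun p := (p.a, p.b, p.c, p.e)
  invFun v := ⟨v.1, v.2.1, v.2.2.1, v.2.2.2⟩
  left_inv _ := rfl
  right_inv _ := rfl

instance : Finite T0 := Finite.of_equiv _ equivProd.symm

theorem card_eq : Nat.card T0 = 128 := by
  rw [Nat.card_congr equivProd]
  simp [Cl.card_GF4]

end T0

end Cfsg.Agent.J2S
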