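import Mathlib
import Cfsg.Agent.J2S.TB

/-!
# Subgroups of `T0`
-/

set_option autoImplicit false

namespace Cfsg.Agent.J2S

/-- The first root subgroup. -/
def x (a : K4) : T0 := ⟨a, 0, 0, false⟩
/-- The second root subgroup. -/
def y (b : K4) : T0 := ⟨0, b, 0, false⟩
/-- The highest root subgroup. -/
def w (c : K4) : T0 := ⟨0, 0, c, false⟩
/-- The unitary automorphism. -/
def ta : T0 := ⟨0, 0, 0, true⟩
/-- A generator of the quaternion group `C_J(ta)`. -/
def i1 : T0 := ⟨1, 1, om, false⟩
/-- A generator of the quaternion group `C_J(ta)`. -/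
def i2 : T0 := ⟨om, om * om, om, false⟩

/-- A subgroup from a decidable predicate. -/
def mkS (P : T0 → Prop) (h1 : P 1) (h2 : ∀ p q, P p → P q → P (p * q)) (h3 : ∀ p, P p → P p⁻¹) : Subgroup T0 where
  carrier := {p | P p}
  mul_mem' := fun {p q} => h2 p q
  one_mem' := h1
  inv_mem' := fun {p} => h3 p

/-- The first elementary abelian subgroup of order 16. -/
def E0 : Subgroup T0 := mkS (fun p => p.b = 0 ∧ p.e = false) (by decide +kernel) (by decide +kernel) (by decide +kernel)
/-- The second elementary abelian subgroup of order 16. -/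
def F0 : Subgroup T0 := mkS (fun p => p.a = 0 ∧ p.e = false) (by decide +kernel) (by decide +kernel) (by decide +kernel)
/-- The subgroup of order 64. -/
def J0 : Subgroup T0 := mkS (fun p => p.e = false) (by decide +kernel) (by decide +kernel) (by decide +kernel)
/-- The extraspecial subgroup of order 32. -/
def Q0 : Subgroup T0 := mkS (fun p => p.b = p.a * p.a) (by decide +kernel) (by decide +kernel) (by decide +kernel)
/-- The root subgroup. -/
def U0 : Subgroup T0 :=
  mkS (fun p => p.b = 0 ∧ p.c = 0 ∧ p.e = false) (by decide +kernel) (by decide +kernel) (by decide +kernel)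
/-- The quaternion group `C_J(ta)`. -/
def C8 : Subgroup T0 :=
  mkS (fun p => p.e = false ∧ p * ta = ta * p) (by decide +kernel) (by decide +kernel) (by decide +kernel)
/-- The centre of `J0`. -/
def Z0 : Subgroup T0 := E0 ⊓ F0

instance : DecidablePred (· ∈ E0) := fun p => inferInstanceAs (Decidable (p.b = 0 ∧ p.e = false))
instance : DecidablePred (· ∈ F0) := fun p => inferInstanceAs (Decidable (p.a = 0 ∧ p.e = false))
instance : DecidablePred (· ∈ J0) := fun p => inferInstanceAs (Decidable (p.e = false))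
instance : DecidablePred (· ∈ Q0) := fun p => inferInstanceAs (Decidable (p.b = p.a * p.a))
instance : DecidablePred (· ∈ U0) := fun p => inferInstanceAs (Decidable (p.b = 0 ∧ p.c = 0 ∧ p.e = false))
instance : DecidablePred (· ∈ C8) := fun p => inferInstanceAs (Decidable (p.e = false ∧ p * ta = ta * p))
instance : DecidablePred (· ∈ Z0) := fun p => inferInstanceAs (Decidable (p ∈ E0 ∧ p ∈ F0))

instance : J0.Normal := ⟨by decide +kernel⟩
instance : Z0.Normal := ⟨by decide +kernel⟩
instance : Q0.Normal := ⟨by decide +kernel⟩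

theorem card_of_equiv {H : Subgroup T0} {β : Type} (f : β → T0) (hf : Function.Injective f)
    (h : ∀ p, p ∈ H ↔ ∃ v, f v = p) : Nat.card H = Nat.card β :=
  (Nat.card_congr (Equiv.ofBijective (fun v => (⟨f v, (h _).2 ⟨v, rfl⟩⟩ : H))
    ⟨fun _ _ e => hf (congrArg Subtype.val e), fun p =>
      ((h _).1 p.2).imp fun _ e => Subtype.ext e⟩)).symm

theorem card_E0 : Nat.card E0 = 16 := by
  rw [card_of_equiv (fun v : K4 × K4 => ⟨v.1, 0, v.2, false⟩) (by decide +kernel) (by decide +kernel)]
  simp [Cl.card_GF4]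

theorem card_F0 : Nat.card F0 = 16 := by
  rw [card_of_equiv (fun v : K4 × K4 => ⟨0, v.1, v.2, false⟩) (by decide +kernel) (by decide +kernel)]
  simp [Cl.card_GF4]

theorem card_Z0 : Nat.card Z0 = 4 := by
  rw [card_of_equiv w (by decide +kernel) (by decide +kernel)]
  simp [Cl.card_GF4]

theorem card_U0 : Nat.card U0 = 4 := by
  rw [card_of_equiv x (by decide +kernel) (by decide +kernel)]
  simp [Cl.card_GF4]

theorem card_J0 : Nat.card J0 = 64 := by
  rw [card_of_equiv (fun v : K4 × K4 × K4 => ⟨v.1, v.2.1, v.2.2, false⟩) (by decide +kernel)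
    (by decide +kernel)]
  simp [Cl.card_GF4]

theorem card_Q0 : Nat.card Q0 = 32 := by
  rw [card_of_equiv (fun v : K4 × K4 × Bool => ⟨v.1, v.1 * v.1, v.2.1, v.2.2⟩) (by decide +kernel)
    (by decide +kernel)]
  simp [Cl.card_GF4]

theorem card_C8 : Nat.card C8 = 8 := by
  rw [card_of_equiv (fun v : K4 × Bool => ⟨v.1, v.1 * v.1, v.1 * v.1 * v.1 * om + Bool.rec 0 1 v.2, false⟩)
    (by decide +kernel) (by decide +kernel)]
  simp [Cl.card_GF4]

/-- The action of the torus on `J0`. -/
def rho (α β : K4) (p : T0) : T0 := ⟨α * p.a, β * p.b, α * β * p.c, p.e⟩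

/-- The action of the involution `p` of `C(z)` on `Q0`. -/
def pi (q : T0) : T0 :=
  if q.a = 0 then (if q.c = 0 ∨ q.c = om then 1 else w 1) * (if q.c = 0 ∨ q.c = 1 then 1 else ta) *
    (if q.e then w om else 1)
  else ⟨q.a * q.a, q.b * q.b, om * om, false⟩ * (if q.c = 0 ∨ q.c = om then 1 else w 1) *
    (if q.c = 0 ∨ q.c = 1 then ta else 1) * (if q.e then w om else 1)

/-- `V true = E0`, `V false = F0`. -/
def V (ε : Bool) : Subgroup T0 := Bool.rec F0 E0 ε

instance (ε : Bool) : DecidablePred (· ∈ V ε) := fun p =>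
  Bool.rec (inferInstanceAs (Decidable (p ∈ F0))) (inferInstanceAs (Decidable (p ∈ E0))) ε

/-- The representative of the class of an involution. -/
def cl (p : T0) : T0 := if p = 1 then 1 else if p ∈ J0 ∧ p ∉ Z0 then x 1 else w 1

end Cfsg.Agent.J2S
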