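import Mathlib
import Cfsg.Agent.J2S.T

/-!
# The unitriangular group `H4`
-/

set_option autoImplicit false

namespace Cfsg.Agent.J2S

/-- The unitriangular group. -/
abbrev H4 : Type := Inv.U3.HQ K4

instance : DecidableEq H4 := fun p q =>
  decidable_of_iff (p.a = q.a ∧ p.b = q.b ∧ p.c = q.c) Inv.U3.HQ.ext_iff.symm

instance H4.decAll (P : H4 → Prop) [DecidablePred P] : Decidable (∀ p, P p) :=
  decidable_of_iff (∀ a b c, P ⟨a, b, c⟩) ⟨fun h p => h p.a p.b p.c, fun h _ _ _ => h _⟩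

instance H4.decEx (P : H4 → Prop) [DecidablePred P] : Decidable (∃ p, P p) :=
  decidable_of_iff (∃ a b c, P ⟨a, b, c⟩) ⟨fun ⟨_, _, _, h⟩ => ⟨_, h⟩, fun ⟨p, h⟩ => ⟨p.a, p.b, p.c, h⟩⟩

theorem card_H4 : Nat.card H4 = 64 := by
  rw [Inv.U3.HQ.card, Nat.card_eq_fintype_card, Cl.card_GF4]
  rfl

/-- The embedding with image `J0`. -/
def jn : H4 →* T0 := MonoidHom.mk' (fun p => ⟨p.a, p.b, p.c, false⟩) (by decide +kernel)

/-- The retraction. -/
def pj (p : T0) : H4 := ⟨p.a, p.b, p.c⟩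

/-- The first root subgroup. -/
def hx (a : K4) : H4 := ⟨a, 0, 0⟩
/-- The second root subgroup. -/
def hy (b : K4) : H4 := ⟨0, b, 0⟩
/-- The highest root subgroup. -/
def hw (c : K4) : H4 := ⟨0, 0, c⟩
/-- The torus. -/
def rh (α β : K4) (p : H4) : H4 := ⟨α * p.a, β * p.b, α * β * p.c⟩
/-- The unitary automorphism. -/
def th (q : H4) : H4 := ⟨q.b * q.b, q.a * q.a, q.c * q.c + q.a * q.a * (q.b * q.b)⟩

/-- The two elementary abelian subgroups of order 16. -/
def HV (ε : Bool) : Subgroup H4 := (V ε).comap jn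
/-- The centre. -/
def ZH : Subgroup H4 := Z0.comap jn

instance (ε : Bool) : DecidablePred (· ∈ HV ε) := fun p => inferInstanceAs (Decidable (jn p ∈ V ε))
instance : DecidablePred (· ∈ ZH) := fun p => inferInstanceAs (Decidable (jn p ∈ Z0))

theorem jn_inj : Function.Injective jn := fun _ _ e => congrArg pj e
theorem jn_mem : ∀ p, jn p ∈ J0 := fun _ => rfl
theorem jn_pj : ∀ p ∈ J0, jn (pj p) = p := by decide +kernel
theorem pj_jn : ∀ p, pj (jn p) = p := fun _ => rfl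
theorem range_jn : jn.range = J0 :=
  le_antisymm (fun _ ⟨p, e⟩ => e ▸ jn_mem p) fun p hp => ⟨pj p, jn_pj p hp⟩
theorem jn_hx (a : K4) : jn (hx a) = x a := rfl
theorem jn_hy (a : K4) : jn (hy a) = y a := rfl
theorem jn_hw (a : K4) : jn (hw a) = w a := rfl
theorem jn_rh (α β : K4) (p : H4) : jn (rh α β p) = rho α β (jn p) := rfl
theorem jn_th : ∀ p, jn (th p) = ta * jn p * ta := by decide +kernel
theorem th_th : ∀ p, th (th p) = p := by decide +kernel
theorem th_mul : ∀ p q, th (p * q) = th p * th q := by decide +kernel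
theorem rh_mul (α β : K4) (p q : H4) : rh α β (p * q) = rh α β p * rh α β q := by
  ext <;> simp only [rh, Inv.U3.HQ.mul_a, Inv.U3.HQ.mul_b, Inv.U3.HQ.mul_c] <;> ring
theorem mem_ZH : ∀ p : H4, p ∈ ZH ↔ p.a = 0 ∧ p.b = 0 := by decide +kernel
theorem mem_HE : ∀ p : H4, p ∈ HV true ↔ p.b = 0 := by decide +kernel
theorem mem_HF : ∀ p : H4, p ∈ HV false ↔ p.a = 0 := by decide +kernel
theorem hw_mem : ∀ c, hw c ∈ ZH := by decide +kernel
theorem ZH_eq : ∀ p ∈ ZH, p = hw p.c := by decide +kernel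
theorem ZH_comm : ∀ p ∈ ZH, ∀ q, p * q = q * p := by decide +kernel
theorem ZH_of_comm : ∀ p : H4, p * hx 1 = hx 1 * p → p * hy 1 = hy 1 * p → p ∈ ZH := by decide +kernel
theorem H_dec : ∀ p : H4, p = hy p.b * hx p.a * hw p.c := by decide +kernel

theorem pg : IsPGroup 2 T0 := IsPGroup.of_card (n := 7) T0.card_eq
theorem pgH : IsPGroup 2 H4 := IsPGroup.of_card (n := 6) card_H4

/-- A homomorphism from relations. -/
theorem exists_homH {A : Type*} [Group A] (X Y V : K4 → A)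
    (hX : ∀ a a', X a * X a' = X (a + a')) (hY : ∀ a a', Y a * Y a' = Y (a + a'))
    (hV : ∀ a a', V a * V a' = V (a + a')) (hXV : ∀ a c, V c * X a = X a * V c)
    (hYV : ∀ a c, V c * Y a = Y a * V c) (hXY : ∀ a b, X a * Y b = Y b * X a * V (a * b)) :
    ∃ ι : H4 →* A, (∀ a, ι (hx a) = X a) ∧ (∀ a, ι (hy a) = Y a) ∧ ∀ a, ι (hw a) = V a := by
  have z : ∀ {U : K4 → A}, (∀ a a', U a * U a' = U (a + a')) → U 0 = 1 := fun {U} h => by
    have := h 0 0
    rwa [add_zero, mul_eq_left] at this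
  refine ⟨MonoidHom.mk' (fun p => Y p.b * X p.a * V p.c) fun p q => ?_, fun a => ?_, fun a => ?_, fun a => ?_⟩
  · simp only [Inv.U3.HQ.mul_a, Inv.U3.HQ.mul_b, Inv.U3.HQ.mul_c]
    rw [← hX, ← hY, ← hV, ← hV]
    have h2 : X p.a * V p.c * (Y q.b * X q.a * V q.c) =
        Y q.b * (X p.a * X q.a) * (V p.c * V q.c * V (p.a * q.b)) := by
      calc X p.a * V p.c * (Y q.b * X q.a * V q.c) = X p.a * (V p.c * Y q.b) * X q.a * V q.c := by group
        _ = X p.a * Y q.b * (V p.c * X q.a) * V q.c := by rw [hYV]; group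
        _ = Y q.b * X p.a * (V (p.a * q.b) * X q.a) * (V p.c * V q.c) := by rw [hXV, hXY]; group
        _ = Y q.b * (X p.a * X q.a) * (V (p.a * q.b) * (V p.c * V q.c)) := by rw [hXV]; group
        _ = _ := by rw [hV, hV, hV, add_comm (p.a * q.b)]
    calc Y p.b * Y q.b * (X p.a * X q.a) * (V p.c * V q.c * V (p.a * q.b))
        = Y p.b * (Y q.b * (X p.a * X q.a) * (V p.c * V q.c * V (p.a * q.b))) := by group
      _ = _ := by rw [← h2]; group
  all_goals simp [hx, hy, hw, z hX, z hY, z hV]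

/-- Extension of a homomorphism from `H4` to `T0`. -/
theorem exists_ext {A : Type*} [Group A] (θ : H4 →* A) (τ : A) (h2 : τ * τ = 1)
    (h : ∀ q, τ * θ q * τ = θ (th q)) : ∃ ι : T0 →* A, (∀ q, ι (jn q) = θ q) ∧ ι ta = τ := by
  let P : Bool → A := fun e => Bool.rec 1 τ e
  have hP : ∀ e q, P e * θ (pj q) = θ (pj (T0.act e q)) * P e := fun e q => by
    cases e
    · simp [P, T0.act]
    · change τ * _ = θ (th (pj q)) * τ
      rw [← h, mul_assoc, h2, mul_one]
  have hPP : ∀ e f, P e * P f = P (xor e f) := fun e f => by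
    cases e <;> cases f <;> simp [P, h2]
  refine ⟨MonoidHom.mk' (fun p => θ (pj p) * P p.e) fun p q => ?_, fun q => mul_one _, ?_⟩
  · change θ (pj p * pj (T0.act p.e q)) * P (xor p.e (T0.act p.e q).e) = _
    rw [T0.act_e, ← hPP, map_mul, mul_assoc, mul_assoc, ← mul_assoc (θ _) (P _), ← hP]
    group
  · change θ 1 * τ = τ
    simp

end Cfsg.Agent.J2S
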