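import Mathlib
import Cfsg.Agent.J2S.TH

/-!
# Finite facts on `T0`
-/

set_option autoImplicit false

namespace Cfsg.Agent.J2S

open Subgroup

theorem E0_le : E0 ≤ J0 := fun _ h => h.2
theorem F0_le : F0 ≤ J0 := fun _ h => h.2
theorem Z0_leE : Z0 ≤ E0 := inf_le_left
theorem Z0_leF : Z0 ≤ F0 := inf_le_right
theorem Z0_leJ : Z0 ≤ J0 := Z0_leE.trans E0_le
theorem Z0_leQ : Z0 ≤ Q0 := (by decide +kernel : ∀ p ∈ Z0, p ∈ Q0)
theorem U0_le : U0 ≤ E0 := (by decide +kernel : ∀ p ∈ U0, p ∈ E0)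
theorem C8_leJ : C8 ≤ J0 := fun _ h => h.1
theorem C8_leQ : C8 ≤ Q0 := (by decide +kernel : ∀ p ∈ C8, p ∈ Q0)

theorem sq_E : ∀ p ∈ E0, p * p = 1 := by decide +kernel
theorem sq_F : ∀ p ∈ F0, p * p = 1 := by decide +kernel
theorem comm_E : ∀ p ∈ E0, ∀ q ∈ E0, p * q = q * p := by decide +kernel
theorem comm_F : ∀ p ∈ F0, ∀ q ∈ F0, p * q = q * p := by decide +kernel
theorem comm_Z : ∀ p ∈ Z0, ∀ q ∈ J0, p * q = q * p := by decide +kernel
theorem comm_z : ∀ q, w 1 * q = q * w 1 := by decide +kernel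
theorem pow_eight : ∀ p : T0, p * p * (p * p) * (p * p * (p * p)) = 1 := by decide +kernel
theorem sq_mem_Z : ∀ p ∈ J0, p * p ∈ Z0 := by decide +kernel
theorem exists_EF : ∀ p ∈ J0, ∃ e ∈ E0, ∃ f ∈ F0, p = e * f := by decide +kernel
theorem J_dec : ∀ p ∈ J0, p = y p.b * x p.a * w p.c := by decide +kernel
theorem E_dec : ∀ p ∈ E0, p = x p.a * w p.c := by decide +kernel
theorem F_dec : ∀ p ∈ F0, p = y p.b * w p.c := by decide +kernel
theorem Z_dec : ∀ p ∈ Z0, p = w p.c := by decide +kernel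
theorem U_dec : ∀ p ∈ U0, p = x p.a := by decide +kernel
theorem T_dec : ∀ p : T0, p ∈ J0 ∨ p * ta ∈ J0 := by decide +kernel
theorem invol_J : ∀ p ∈ J0, p * p = 1 → p ∈ E0 ∨ p ∈ F0 := by decide +kernel
theorem mem_Z_of_comm : ∀ p ∈ E0, ∀ q ∈ F0, p * q = q * p → p ∈ Z0 ∨ q ∈ Z0 := by decide +kernel
theorem mem_J_of_comm : ∀ p : T0, p * w om = w om * p → p ∈ J0 := by decide +kernel
theorem cent_x : ∀ p : T0, p * x 1 = x 1 * p → p ∈ E0 := by decide +kernel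
theorem cent_y : ∀ p : T0, p * y 1 = y 1 * p → p ∈ F0 := by decide +kernel
theorem center_eq : ∀ p : T0, p * x 1 = x 1 * p → p * ta = ta * p → p = 1 ∨ p = w 1 := by decide +kernel
theorem cent_Q : ∀ p : T0, p * i1 = i1 * p → p * i2 = i2 * p → p * ta = ta * p → p * w om = w om * p →
    p = 1 ∨ p = w 1 := by decide +kernel
theorem cent_C8 : ∀ p : T0, p * i1 = i1 * p → p * i2 = i2 * p → p ∈ Z0 ∨ p * ta ∈ Z0 := by decide +kernel
theorem comm_mem_Z : ∀ p ∈ J0, ∀ q ∈ J0, p * q * p⁻¹ * q⁻¹ ∈ Z0 := by decide +kernel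
theorem conj_E : ∀ p ∈ J0, ∀ q ∈ E0, p * q * p⁻¹ ∈ E0 := by decide +kernel
theorem conj_F : ∀ p ∈ J0, ∀ q ∈ F0, p * q * p⁻¹ ∈ F0 := by decide +kernel
theorem ta_E : ∀ p, ta * p * ta ∈ E0 ↔ p ∈ F0 := by decide +kernel
theorem ta_F : ∀ p, ta * p * ta ∈ F0 ↔ p ∈ E0 := by decide +kernel
theorem conj_ta : ∀ p : T0, p ∉ J0 → p * p = 1 → ∃ j ∈ J0, j * p * j⁻¹ = ta := by decide +kernel
theorem sq_of_Z : ∀ p ∈ Z0, ∃ j ∈ J0, j * j = p := by decide +kernel

theorem z_ne : w 1 ≠ 1 := by decide +kernel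
theorem z_sq : w 1 * w 1 = 1 := by decide +kernel
theorem w_mem : ∀ c, w c ∈ Z0 := by decide +kernel
theorem x_mem : ∀ c, x c ∈ E0 := by decide +kernel
theorem x_memU : ∀ c, x c ∈ U0 := by decide +kernel
theorem y_mem : ∀ c, y c ∈ F0 := by decide +kernel
theorem w_mul : ∀ a b, w a * w b = w (a + b) := by decide +kernel
theorem x_mul : ∀ a b, x a * x b = x (a + b) := by decide +kernel
theorem y_mul : ∀ a b, y a * y b = y (a + b) := by decide +kernel
theorem Z_cases : ∀ p ∈ Z0, p = 1 ∨ p = w 1 ∨ p = w om ∨ p = w 1 * w om := by decide +kernel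
theorem U_cases : ∀ p ∈ U0, p = 1 ∨ p = x 1 ∨ p = x om ∨ p = x 1 * x om := by decide +kernel
theorem K4_cases : ∀ a : K4, a = 0 ∨ a = 1 ∨ a = om ∨ a = om * om := by decide +kernel
theorem ta_sq : ta * ta = 1 := by decide +kernel
theorem ta_notMem : ta ∉ J0 := by decide +kernel
theorem ta_memQ : ta ∈ Q0 := by decide +kernel
theorem ta_x : ∀ a, ta * x a * ta = y (a * a) := by decide +kernel
theorem ta_y : ∀ a, ta * y a * ta = x (a * a) := by decide +kernel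
theorem ta_w : ∀ a, ta * w a * ta = w (a * a) := by decide +kernel
theorem i1_mem : i1 ∈ C8 := by decide +kernel
theorem i2_mem : i2 ∈ C8 := by decide +kernel
theorem xy_comm : ∀ a b, x a * y b * (x a)⁻¹ * (y b)⁻¹ = w (a * b) := by decide +kernel
theorem mem_J_iff : ∀ p q : T0, p * q ∈ J0 ↔ (p ∈ J0 ↔ q ∈ J0) := by decide +kernel

theorem rho_J (α β : K4) : ∀ p ∈ J0, rho α β p ∈ J0 := fun _ h => h
theorem rho_E : ∀ α β, ∀ p ∈ E0, rho α β p ∈ E0 := by decide +kernel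
theorem rho_F : ∀ α β, ∀ p ∈ F0, rho α β p ∈ F0 := by decide +kernel
theorem rho_Z : ∀ α β, ∀ p ∈ Z0, rho α β p ∈ Z0 := by decide +kernel
theorem rho_U : ∀ α β, ∀ p ∈ U0, rho α β p ∈ U0 := by decide +kernel
theorem rho_rho : ∀ α β γ δ p, rho α β (rho γ δ p) = rho (α * γ) (β * δ) p := by decide +kernel
theorem rho_one : ∀ p, rho 1 1 p = p := by decide +kernel
theorem h_fpf : ∀ p ∈ J0, rho om om p = p → p = 1 := by decide +kernel
theorem r2_fpf : ∀ p ∈ E0, rho om 1 p = p → p = 1 := by decide +kernel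
theorem r1_fpf : ∀ p ∈ F0, rho 1 om p = p → p = 1 := by decide +kernel
theorem r2_norm : ∀ p ∈ E0, p * rho om 1 p * rho om 1 (rho om 1 p) = 1 := by decide +kernel
theorem r1_fix : ∀ p ∈ J0, rho 1 om p = p → p ∈ U0 := by decide +kernel
theorem rU_fix : ∀ p ∈ J0, rho om (om * om) p = p → p ∈ Z0 := by decide +kernel
/-- The torus and `J` are transitive on `E ∖ Z`. -/
theorem trans_E : ∀ p ∈ E0, p ∉ Z0 → ∃ α, α ≠ 0 ∧ ∃ b, y b * rho α 1 p * (y b)⁻¹ = x 1 := by decide +kernel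
theorem trans_Z : ∀ p ∈ Z0, p ≠ 1 → ∃ α, α ≠ 0 ∧ rho α 1 p = w 1 := by decide +kernel

theorem pi_mem : ∀ q ∈ Q0, pi q ∈ Q0 := by decide +kernel
theorem pi_pi : ∀ q ∈ Q0, pi (pi q) = q := by decide +kernel
theorem pi_C8 : ∀ q ∈ C8, pi q ∈ C8 := by decide +kernel
theorem pi_z : pi (w 1) = w 1 := by decide +kernel
theorem pi_w : pi (w om) = ta := by decide +kernel
theorem pi_ta : pi ta = w om := by decide +kernel
theorem pi_mul : ∀ p ∈ Q0, ∀ q ∈ Q0, pi (p * q) = pi p * pi q := by decide +kernel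
/-- An element of order four of `Q0 ∖ J0` is moved into `J0`. -/
theorem pi_four : pi (x 1 * (w om * ta) * (x 1)⁻¹) = ⟨1, 1, 0, false⟩ := by decide +kernel
/-- The non-central involutions of `Q0`. -/
theorem invol_Q : ∀ q ∈ Q0, q * q = 1 → q = 1 ∨ q = w 1 ∨ ∃ j, j * w om * j⁻¹ = q ∨ j * ta * j⁻¹ = q := by
  decide +kernel

theorem cl_cases : ∀ p, cl p = 1 ∨ cl p = w 1 ∨ cl p = x 1 := by decide +kernel
theorem cl_eq_one : ∀ p, cl p = 1 ↔ p = 1 := by decide +kernel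

theorem gen3 {S : Subgroup T0} {u : K4 → T0} (h : ∀ a, u a = 1 ∨ u a = u 1 ∨ u a = u om ∨ u a = u 1 * u om)
    (a1 : u 1 ∈ S) (a2 : u om ∈ S) (a : K4) : u a ∈ S := by
  rcases h a with e | e | e | e <;> rw [e]
  exacts [one_mem _, a1, a2, mul_mem a1 a2]

theorem J_le {S : Subgroup T0} (h1 : x 1 ∈ S) (h2 : x om ∈ S) (h3 : y 1 ∈ S) (h4 : y om ∈ S) : J0 ≤ S := by
  have hx := gen3 (by decide +kernel) h1 h2
  have hy := gen3 (by decide +kernel) h3 h4
  have hw : ∀ a, w a ∈ S := fun a => by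
    simpa [xy_comm] using mul_mem (mul_mem (mul_mem (hx a) h3) (inv_mem (hx a))) (inv_mem h3)
  intro p hp
  rw [J_dec p hp]
  exact mul_mem (mul_mem (hy _) (hx _)) (hw _)

/-- Generation by three involutions. -/
theorem eq_top_of {S : Subgroup T0} (h1 : x 1 ∈ S) (h2 : x om ∈ S) (h3 : ta ∈ S) : S = ⊤ := by
  have k : ∀ a, x a ∈ S → y (a * a) ∈ S := fun a h => ta_x a ▸ mul_mem (mul_mem h3 h) h3
  have h4 := J_le h1 h2 (by simpa using k 1 h1) (by
    have := k _ (gen3 (by decide +kernel) h1 h2 (om * om))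
    rwa [show om * om * (om * om) = om by decide +kernel] at this)
  refine eq_top_iff.2 fun p _ => (T_dec p).elim (fun h => h4 h) fun h => ?_
  exact (mul_mem_cancel_right h3).1 (h4 h)

theorem Q_le {S : Subgroup T0} (h1 : i1 ∈ S) (h2 : i2 ∈ S) (h3 : ta ∈ S) (h4 : w om ∈ S) : Q0 ≤ S := by
  have k : ∀ q ∈ Q0, ∃ a ∈ [1, i1, i2, i1 * i2], ∃ b ∈ [1, i1 * i1], ∃ c ∈ [1, w om], ∃ d ∈ [1, ta],
      q = a * b * c * d := by decide +kernel
  intro q hq
  obtain ⟨a, ha, b, hb, c, hc, d, hd, rfl⟩ := k q hq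
  simp only [List.mem_cons, List.not_mem_nil, or_false] at ha hb hc hd
  refine mul_mem (mul_mem (mul_mem ?_ ?_) ?_) ?_
  · rcases ha with rfl | rfl | rfl | rfl
    exacts [one_mem _, h1, h2, mul_mem h1 h2]
  · rcases hb with rfl | rfl
    exacts [one_mem _, mul_mem h1 h1]
  · rcases hc with rfl | rfl
    exacts [one_mem _, h4]
  · rcases hd with rfl | rfl
    exacts [one_mem _, h3]

theorem comm_of_sq {A : Subgroup T0} (h : ∀ p ∈ A, p * p = 1) {p q : T0} (hp : p ∈ A) (hq : q ∈ A) :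
    p * q = q * p := by
  rw [← inv_eq_of_mul_eq_one_right (h _ (mul_mem hp hq)), mul_inv_rev, inv_eq_of_mul_eq_one_right (h p hp),
    inv_eq_of_mul_eq_one_right (h q hq)]

theorem le_or_le {A : Subgroup T0} (h : ∀ p ∈ A, p * p = 1) (hJ : A ≤ J0) : A ≤ E0 ∨ A ≤ F0 := by
  by_contra h1
  obtain ⟨⟨p, hp, p1⟩, q, hq, q1⟩ := (not_or.1 h1).imp SetLike.not_le_iff_exists.1 SetLike.not_le_iff_exists.1
  rcases mem_Z_of_comm q ((invol_J q (hJ hq) (h q hq)).resolve_right q1) p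
    ((invol_J p (hJ hp) (h p hp)).resolve_left p1) (comm_of_sq h hq hp) with e | e
  exacts [q1 e.2, p1 e.1]

theorem card_le_of_list {A : Subgroup T0} (l : List T0) (h : ∀ p ∈ A, p ∈ l) : Nat.card A ≤ l.length := by
  have h1 : (A : Set T0) ⊆ (l.toFinset : Set T0) := fun p hp => by simpa using h p hp
  calc Nat.card A = (A : Set T0).ncard := rfl
    _ ≤ (l.toFinset : Set T0).ncard := Set.ncard_le_ncard h1
    _ ≤ l.length := by rw [Set.ncard_coe_finset]; exact l.toFinset_card_le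

/-- An elementary abelian subgroup outside `J0` has order at most four. -/
theorem card_le_four {A : Subgroup T0} (h : ∀ p ∈ A, p * p = 1) (hJ : ¬ A ≤ J0) : Nat.card A ≤ 4 := by
  obtain ⟨p, hp, p1⟩ := SetLike.not_le_iff_exists.1 hJ
  have k : ∀ p : T0, p ∉ J0 → p * p = 1 → ∀ q, q * q = 1 → q * p = p * q → q ∈ [1, w 1, p, w 1 * p] := by
    decide +kernel
  exact card_le_of_list [1, w 1, p, w 1 * p] fun q hq => k p p1 (h p hp) q (h q hq) (comm_of_sq h hq hp)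

/-- The elementary abelian subgroups of order at least 16. -/
theorem el16 {A : Subgroup T0} (h : ∀ p ∈ A, p * p = 1) (hc : 16 ≤ Nat.card A) : A = E0 ∨ A = F0 := by
  by_cases hJ : A ≤ J0
  · exact (le_or_le h hJ).imp (fun e => eq_of_le_of_card_ge e (card_E0 ▸ hc)) fun e =>
      eq_of_le_of_card_ge e (card_F0 ▸ hc)
  · have := card_le_four h hJ
    omega

theorem card_le_sixteen {A : Subgroup T0} (h : ∀ p ∈ A, p * p = 1) : Nat.card A ≤ 16 := by
  by_contra h1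
  rcases el16 h (by omega) with e | e <;> simp [e, card_E0, card_F0] at h1

/-- An involution with a large centraliser lies in `Z0`. -/
theorem mem_Z_of_card {A : Subgroup T0} {p : T0} (h2 : p * p = 1) (h : ∀ q ∈ A, q * p = p * q)
    (hc : 32 ≤ Nat.card A) : p ∈ Z0 := by
  by_contra hp
  by_cases hJ : p ∈ J0
  · have k : ∀ p ∈ J0, p ∉ Z0 → ∀ q, q * p = p * q → (p ∈ E0 → q ∈ E0) ∧ (p ∈ F0 → q ∈ F0) := by decide +kernel
    rcases invol_J p hJ h2 with e | e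
    · have := card_le_of_le (show A ≤ E0 from fun q hq => (k p hJ hp q (h q hq)).1 e)
      rw [card_E0] at this
      omega
    · have := card_le_of_le (show A ≤ F0 from fun q hq => (k p hJ hp q (h q hq)).2 e)
      rw [card_F0] at this
      omega
  · obtain ⟨j, -, e⟩ := conj_ta p hJ h2
    have k : ∀ q : T0, q * ta = ta * q → q ∈ [1, w 1, i1, i1⁻¹, i2, i2⁻¹, i1 * i2, i2 * i1, ta, w 1 * ta, i1 * ta,
        i1⁻¹ * ta, i2 * ta, i2⁻¹ * ta, i1 * i2 * ta, i2 * i1 * ta] := by decide +kernel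
    rw [← card_map_of_injective (f := (MulAut.conj j).toMonoidHom) (MulAut.conj j).injective] at hc
    refine absurd (hc.trans (card_le_of_list _ ?_)) (by decide : ¬ 32 ≤ [1, w 1, i1, i1⁻¹, i2, i2⁻¹, i1 * i2, i2 * i1,
      ta, w 1 * ta, i1 * ta, i1⁻¹ * ta, i2 * ta, i2⁻¹ * ta, i1 * i2 * ta, i2 * i1 * ta].length)
    rintro _ ⟨q, hq, rfl⟩
    refine k _ ?_
    rw [← e]
    exact (map_mul (MulAut.conj j) q p).symm.trans ((congrArg _ (h q hq)).trans (map_mul _ p q))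

theorem E_ne_F : E0 ≠ F0 := fun e => by
  have := x_mem 1
  rw [e] at this
  exact absurd this (by decide +kernel)

theorem V_sq (ε : Bool) : ∀ p ∈ V ε, p * p = 1 := by cases ε; exacts [sq_F, sq_E]
theorem V_comm (ε : Bool) : ∀ p ∈ V ε, ∀ q ∈ V ε, p * q = q * p := by cases ε; exacts [comm_F, comm_E]
theorem V_le (ε : Bool) : V ε ≤ J0 := by cases ε; exacts [F0_le, E0_le]
theorem Z_le_V (ε : Bool) : Z0 ≤ V ε := by cases ε; exacts [Z0_leF, Z0_leE]
theorem card_V (ε : Bool) : Nat.card (V ε) = 16 := by cases ε; exacts [card_F0, card_E0]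
theorem V_cent : ∀ ε, ∀ p : T0, (∀ q ∈ V ε, p * q = q * p) → p ∈ V ε := by decide +kernel
theorem V_inj : ∀ ε δ, V ε = V δ → ε = δ := by
  rintro (_ | _) (_ | _) e
  exacts [rfl, absurd e.symm E_ne_F, absurd e E_ne_F, rfl]
theorem ta_V : ∀ ε p, ta * p * ta ∈ V ε ↔ p ∈ V (!ε) := by decide +kernel
theorem conj_V : ∀ ε, ∀ p ∈ J0, ∀ q ∈ V ε, p * q * p⁻¹ ∈ V ε := by
  rintro (_ | _)
  exacts [conj_F, conj_E]

end Cfsg.Agent.J2S
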